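import Cfsg.Agent.Invol.DihedralFusion
import Mathlib.GroupTheory.GroupAction.ConjAct

/-!
The three fusion patterns of involutions for a dihedral Sylow 2-subgroup of order at least 8.
-/

set_option autoImplicit false
set_option linter.style.haveILetI false

namespace CfsgLib.DihedralClasses

open CfsgLib.Invol.DihedralSylow CfsgLib.Invol.DihedralSylow.Data

universe u

variable {X : Type u} [Group X] [Finite X] (D : CfsgLib.Invol.DihedralSylow.Data X)

theorem zmod_two_cases : ∀ a b : ZMod 2, a = b ∨ a = b + 1 := by decide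

theorem parity_cases (i : ZMod D.m) : D.parity i = D.parity 0 ∨ D.parity i = D.parity 1 := by
  rw [map_zero, map_one]
  generalize D.parity i = a
  revert a; decide

theorem involution_conj {a : X} (ha : orderOf a = 2) :
    IsConj D.z a ∨ IsConj (D.ss 0) a ∨ IsConj (D.ss 1) a := by
  have hp : IsPGroup 2 (Subgroup.zpowers a) := IsPGroup.of_card (n := 1) (by rw [Nat.card_zpowers, ha, pow_one])
  obtain ⟨x, hx⟩ := D.exists_conj_le_S hp
  have hmem : x * a * x⁻¹ ∈ (D.S : Subgroup X) := hx ⟨a, Subgroup.mem_zpowers a, rfl⟩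
  have hax : IsConj a (x * a * x⁻¹) := isConj_iff.2 ⟨x, rfl⟩
  rcases D.involution_cases hmem (Invol.mul_self_of_orderOf (by rw [Invol.orderOf_conj, ha])) with e | e | ⟨i, e⟩
  · exact absurd (conj_eq_one_iff.1 e) (Invol.ne_one_of_orderOf ha)
  · exact Or.inl (e ▸ hax).symm
  · have hss : ∀ p, D.parity i = D.parity p → IsConj (D.ss p) (D.ss i) := by
      intro p h
      obtain ⟨b, hb⟩ := D.exists_half_of_parity (d := p - i) (by rw [map_sub, h, sub_self])
      exact isConj_iff.2 ⟨D.rr b, by rw [conj_rr_ss, ← hb, sub_sub_cancel]⟩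
    rcases parity_cases D i with h | h
    · exact Or.inr (Or.inl ((hss 0 h).trans (e ▸ hax).symm))
    · exact Or.inr (Or.inr ((hss 1 h).trans (e ▸ hax).symm))

theorem index_two {p q : ZMod D.m} (hpq : D.parity p ≠ D.parity q)
    (hp : IsConj D.z (D.ss p)) (hq : ¬ IsConj D.z (D.ss q)) :
    ∃ N : Subgroup X, N.Normal ∧ N.index = 2 := by
  haveI : Fact (Nat.Prime 2) := ⟨Nat.prime_two⟩
  let M : Subgroup X :=
    { carrier := {x | (∃ i, x = D.rr i ∧ D.parity i = 0) ∨ ∃ i, x = D.ss i ∧ D.parity i = D.parity p}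
      one_mem' := Or.inl ⟨0, D.rr_zero.symm, map_zero _⟩
      mul_mem' := by
        rintro a b (⟨i, rfl, hi⟩ | ⟨i, rfl, hi⟩) (⟨j, rfl, hj⟩ | ⟨j, rfl, hj⟩)
        · exact Or.inl ⟨_, D.rr_rr i j, by rw [map_add, hi, hj, add_zero]⟩
        · exact Or.inr ⟨_, D.rr_ss i j, by rw [map_sub, hi, hj, sub_zero]⟩
        · exact Or.inr ⟨_, D.ss_rr i j, by rw [map_add, hi, hj, add_zero]⟩
        · exact Or.inl ⟨_, D.ss_ss i j, by rw [map_sub, hi, hj, sub_self]⟩
      inv_mem' := by
        rintro a (⟨i, rfl, hi⟩ | ⟨i, rfl, hi⟩)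
        · exact Or.inl ⟨_, D.rr_inv i, by rw [map_neg, hi, neg_zero]⟩
        · exact Or.inr ⟨_, D.ss_inv i, hi⟩ }
  have hMS : M ≤ (D.S : Subgroup X) := by
    rintro x (⟨i, rfl, -⟩ | ⟨i, rfl, -⟩)
    exacts [D.rr_mem i, D.ss_mem i]
  have memr : ∀ i, D.rr i ∈ M ↔ D.parity i = 0 := fun i =>
    ⟨fun h => h.elim (fun ⟨j, e, hj⟩ => D.rr_inj e ▸ hj) (fun ⟨j, e, _⟩ => absurd e (D.rr_ne_ss i j)),
      fun h => Or.inl ⟨i, rfl, h⟩⟩
  have mems : ∀ i, D.ss i ∈ M ↔ D.parity i = D.parity p := fun i =>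
    ⟨fun h => h.elim (fun ⟨j, e, _⟩ => absurd e.symm (D.rr_ne_ss j i)) (fun ⟨j, e, hj⟩ => D.ss_inj e ▸ hj),
      fun h => Or.inr ⟨i, rfl, h⟩⟩
  have hidx : M.relIndex (D.S : Subgroup X) = 2 := by
    rw [Subgroup.relIndex, Subgroup.index_eq_two_iff]
    refine ⟨⟨D.ss q, D.ss_mem q⟩, fun x => ?_⟩
    simp only [Subgroup.mem_subgroupOf, Subgroup.coe_mul]
    rcases D.cases_mem x.2 with ⟨i, hi⟩ | ⟨i, hi⟩
    · rw [hi, rr_ss, memr, mems, map_sub]
      generalize D.parity i = a
      generalize D.parity p = b at hpq ⊢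
      generalize D.parity q = c at hpq ⊢
      revert a b c; simp only [xor_iff_not_iff]; exact zmod_two_xor₁
    · rw [hi, ss_ss, memr, mems, map_sub]
      generalize D.parity i = a
      generalize D.parity p = b at hpq ⊢
      generalize D.parity q = c at hpq ⊢
      revert a b c; simp only [xor_iff_not_iff]; exact zmod_two_xor₂
  obtain ⟨N, hNn, hN, -⟩ := Transfer.thompson_transfer D.S hMS hidx (D.ss_pow_two q) fun g hg => by
    have hc : IsConj (D.ss q) (g * D.ss q * g⁻¹) := isConj_iff.2 ⟨g, rfl⟩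
    rcases D.involution_cases (hMS hg) (Invol.mul_self_of_orderOf (by rw [Invol.orderOf_conj, D.orderOf_ss]))
      with e | e | ⟨i, e⟩
    · exact Invol.ne_one_of_orderOf (D.orderOf_ss q) (conj_eq_one_iff.1 e)
    · exact hq (e ▸ hc).symm
    · rw [e] at hg hc
      exact hq ((D.conj_z_of_same_parity ((mems i).1 hg).symm hp).trans hc.symm)
  exact ⟨N, hNn, hN⟩

theorem no_index_four (h2 : 2 < D.m) {p : ZMod D.m} (hp : IsConj D.z (D.ss p))
    (N : Subgroup X) (hN : N.Normal) : N.index ≠ 4 := by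
  haveI : Fact (Nat.Prime 2) := ⟨Nat.prime_two⟩
  intro h4
  haveI := hN
  set π := QuotientGroup.mk' N
  have hrr : ∀ b, π (D.rr (b + b)) = 1 := by
    intro b
    have e : D.ss 0 * (D.rr b * D.ss 0 * (D.rr b)⁻¹) = D.rr (-(b + b)) := by
      rw [conj_rr_ss, ss_ss, sub_zero, zero_sub]
    have hcomm : ∀ u v : X ⧸ N, u * v = v * u := by
      intro u v
      have : IsMulCommutative (X ⧸ N) := IsPGroup.isMulCommutative_of_card_eq_prime_sq (p := 2)
        (by rw [← Subgroup.index_eq_card, h4]; norm_num)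
      exact mul_comm' u v
    have e1 : π (D.rr (-(b + b))) = 1 := by
      rw [← e, map_mul, map_mul, map_mul, map_inv, hcomm (π (D.rr b)), mul_inv_cancel_right,
        ← map_mul, D.ss_pow_two, map_one]
    rw [← inv_inj, inv_one, ← map_inv, rr_inv]
    exact e1
  have hz : π D.z = 1 := by
    obtain ⟨b, hb⟩ := D.exists_half_of_parity (D.parity_half h2)
    rw [Data.z, hb]; exact hrr b
  have hsp : π (D.ss p) = 1 := by
    obtain ⟨g, hg⟩ := isConj_iff.1 hp
    rw [← hg, map_mul, map_mul, map_inv, hz, mul_one, mul_inv_cancel]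
  set C := Subgroup.zpowers (π (D.ss (p + 1))) with hC
  have hS : (D.S : Subgroup X) ≤ C.comap π := by
    have hone : ∀ i, D.parity i = D.parity p ∨ D.parity i = D.parity (p + 1) := by
      intro i
      rw [map_add, map_one]
      exact zmod_two_cases _ _
    have hconj : ∀ i j, D.parity i = D.parity j → π (D.ss i) = π (D.ss j) := by
      intro i j h
      obtain ⟨b, hb⟩ := D.exists_half_of_parity (d := i - j) (by rw [map_sub, h, sub_self])
      have e : D.ss i * D.rr (-(b + b)) = D.ss j := by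
        rw [ss_rr, ← hb]; congr 1; ring
      rw [← e, map_mul, neg_add, hrr, mul_one]
    have hssC : ∀ i, π (D.ss i) ∈ C := by
      intro i
      rcases hone i with h | h
      · rw [hconj i p h, hsp]; exact one_mem _
      · rw [hconj i _ h]; exact Subgroup.mem_zpowers _
    intro x hx
    show π x ∈ C
    rcases D.cases_mem hx with ⟨i, rfl⟩ | ⟨i, rfl⟩
    · rw [← sub_zero i, ← ss_ss, map_mul]
      exact mul_mem (hssC 0) (hssC i)
    · exact hssC i
  have hd : C.index ∣ 4 := by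
    have := C.index_dvd_card
    rwa [← Subgroup.index_eq_card, h4] at this
  have hd2 : C.index ∣ (D.S : Subgroup X).index := by
    rw [← Subgroup.index_comap_of_surjective C (QuotientGroup.mk'_surjective N)]
    exact Subgroup.index_dvd_of_le hS
  have hle : Nat.card C ≤ 2 := by
    rw [hC, Nat.card_zpowers]
    exact Nat.le_of_dvd (by norm_num) (orderOf_dvd_of_pow_eq_one (by
      rw [pow_two, ← map_mul, D.ss_pow_two, map_one]))
  have h' := C.card_mul_index
  rw [← Subgroup.index_eq_card, h4] at h'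
  obtain ⟨k, -, hk⟩ := (Nat.dvd_prime_pow Nat.prime_two (m := 2)).1 (by simpa using hd)
  rcases k with _ | k
  · rw [hk, pow_zero, mul_one] at h'; omega
  · exact D.S.not_dvd_index ((dvd_pow_self 2 k.succ_ne_zero).trans (hk ▸ hd2))

theorem complement_of_none (h2 : 2 < D.m) (h : ∀ i, ¬ IsConj D.z (D.ss i)) :
    Cfsg.HasNormalPComplement 2 X := by
  refine D.hasNormalPComplement_of_fixed fun U hUS hU => ?_
  obtain ⟨i, rfl⟩ := D.exists_four hU hUS
  refine le_antisymm (fun g hg => ?_)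
    (sup_le (Subgroup.centralizer_le_normalizer _) inf_le_right)
  have hN := Subgroup.mem_normalizer_iff.1 hg
  have hz : g * D.z * g⁻¹ = D.z := by
    rcases (hN D.z).1 (D.z_mem_four' i) with e | e | e | e
    · exact absurd (conj_eq_one_iff.1 e) D.z_ne
    · exact e
    · exact absurd (isConj_iff.2 ⟨g, e⟩) (h i)
    · exact absurd (isConj_iff.2 ⟨g, e⟩) (h _)
  have fixall : ∀ u : X, u * D.z * u⁻¹ = D.z → u * D.ss i * u⁻¹ = D.ss i →
      u ∈ Subgroup.centralizer (D.four i : Set X) := by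
    intro u hu1 hu2
    rw [Subgroup.mem_centralizer_iff]
    intro x hx
    have c1 : Commute D.z u := (mul_inv_eq_iff_eq_mul.1 hu1).symm
    have c2 : Commute (D.ss i) u := (mul_inv_eq_iff_eq_mul.1 hu2).symm
    rcases hx with rfl | rfl | rfl | rfl
    · exact ((Commute.one_left u)).eq
    · exact c1.eq
    · exact c2.eq
    · have e : D.z * D.ss i = D.ss (i + D.half) := by
        rw [Data.z, rr_ss]; congr 1; rw [sub_eq_add_neg, D.neg_half]
      rw [← e]; exact (c1.mul_left c2).eq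
  obtain ⟨b, hb⟩ := D.exists_half_of_parity (D.parity_half h2)
  rcases (hN (D.ss i)).1 (D.ss_mem_four i) with e | e | e | e
  · exact absurd (conj_eq_one_iff.1 e) (Invol.ne_one_of_orderOf (D.orderOf_ss i))
  · exact absurd (isConj_iff.2 ⟨g, e⟩).symm (h i)
  · exact Subgroup.mem_sup_left (fixall g hz e)
  · -- compose with a rotation
    set s := D.rr b with hs
    have hsz : s * D.z * s⁻¹ = D.z := by rw [D.z_comm (D.rr_mem b), mul_inv_cancel_right]
    have hss : ∀ j, s * D.ss j * s⁻¹ = D.ss (j + D.half) := fun j => by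
      rw [conj_rr_ss, ← hb, sub_eq_add_neg, D.neg_half]
    have hsN : s ∈ (D.S : Subgroup X) ⊓ Subgroup.normalizer (D.four i : Set X) := by
      refine ⟨D.rr_mem b, ?_⟩
      show s ∈ Subgroup.normalizer (D.four i : Set X)
      rw [Subgroup.mem_normalizer_iff]
      have him : ∀ x, x ∈ D.four i → s * x * s⁻¹ ∈ D.four i := by
        rintro x (rfl | rfl | rfl | rfl)
        · rw [mul_one, mul_inv_cancel]; exact one_mem _
        · rw [hsz]; exact D.z_mem_four' i
        · rw [hss]; exact Or.inr (Or.inr (Or.inr rfl))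
        · rw [hss, add_assoc, D.half_add, add_zero]; exact D.ss_mem_four i
      intro x
      refine ⟨him x, fun hx => ?_⟩
      have h1 := him _ (him _ hx)
      have h3 : ∀ y ∈ D.four i, s * (s * y * s⁻¹) * s⁻¹ = y := by
        rintro y (rfl | rfl | rfl | rfl)
        · simp
        · rw [hsz, hsz]
        · rw [hss, hss, add_assoc, D.half_add, add_zero]
        · rw [hss, hss, add_assoc (i + D.half), D.half_add, add_zero]
      have h4 := h3 _ hx
      have h6 : s * (s * x * s⁻¹) * s⁻¹ = x := by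
        have := congrArg (fun w => s⁻¹ * w * s) h4
        simp only [mul_assoc, inv_mul_cancel_left, inv_mul_cancel, mul_one] at this ⊢
        exact this
      rw [← h6]; exact him _ hx
    have hu : s⁻¹ * g ∈ Subgroup.centralizer (D.four i : Set X) := by
      refine fixall _ ?_ ?_
      · calc s⁻¹ * g * D.z * (s⁻¹ * g)⁻¹ = s⁻¹ * (g * D.z * g⁻¹) * s := by group
          _ = s⁻¹ * (s * D.z * s⁻¹) * s := by rw [hz, hsz]
          _ = D.z := by group
      · calc s⁻¹ * g * D.ss i * (s⁻¹ * g)⁻¹ = s⁻¹ * (g * D.ss i * g⁻¹) * s := by group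
          _ = s⁻¹ * (s * D.ss i * s⁻¹) * s := by rw [e, hss]
          _ = D.ss i := by group
    have : g = s * (s⁻¹ * g) := by group
    rw [this]
    exact mul_mem (Subgroup.mem_sup_right hsN) (Subgroup.mem_sup_left hu)

theorem three_of_complement (h2 : 2 < D.m) (h : Cfsg.HasNormalPComplement 2 X) :
    ¬ IsConj D.z (D.ss 0) ∧ ¬ IsConj D.z (D.ss 1) ∧ ¬ IsConj (D.ss 0) (D.ss 1) := by
  haveI : Fact (Nat.Prime 2) := ⟨Nat.prime_two⟩
  obtain ⟨P, N, hN, hc⟩ := h
  obtain ⟨g, hg⟩ := MulAction.exists_smul_eq X P D.S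
  haveI := hN
  have hcS : N.IsComplement' (D.S : Subgroup X) := by
    apply Subgroup.isComplement'_of_card_mul_and_disjoint
    · have e : Nat.card (D.S : Subgroup X) = Nat.card (P : Subgroup X) := by
        rw [← hg, Sylow.coe_subgroup_smul]
        exact (Nat.card_congr (Subgroup.equivSMul (MulAut.conj g) (P : Subgroup X)).toEquiv).symm
      rw [e]; exact hc.card_mul
    · rw [disjoint_iff, Subgroup.eq_bot_iff_forall]
      rintro x ⟨hxN, hxS⟩
      rw [← hg, Sylow.coe_subgroup_smul] at hxS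
      obtain ⟨y, hy, rfl⟩ := hxS
      have hyN : y ∈ N := by
        have := hN.conj_mem _ hxN g⁻¹
        simpa [mul_assoc] using this
      have : y = 1 := (Subgroup.eq_bot_iff_forall _).1 (disjoint_iff.1 hc.disjoint) y ⟨hyN, hy⟩
      simp [this]
  -- fusion is controlled by the Sylow subgroup
  have key : ∀ a ∈ (D.S : Subgroup X), ∀ b ∈ (D.S : Subgroup X), IsConj a b →
      ∃ s ∈ (D.S : Subgroup X), s * a * s⁻¹ = b := by
    intro a ha b hb hab
    obtain ⟨x, hx⟩ := isConj_iff.1 hab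
    obtain ⟨⟨⟨n, hn⟩, ⟨s, hs⟩⟩, e⟩ := hcS.2 x
    simp only at e
    refine ⟨s, hs, ?_⟩
    have hsa : s * a * s⁻¹ ∈ (D.S : Subgroup X) := (D.S : Subgroup X).mul_mem ((D.S : Subgroup X).mul_mem hs ha) ((D.S : Subgroup X).inv_mem hs)
    have hdiff : b * (s * a * s⁻¹)⁻¹ ∈ N := by
      rw [← hx, ← e, show n * s * a * (n * s)⁻¹ * (s * a * s⁻¹)⁻¹
        = n * ((s * a * s⁻¹) * n⁻¹ * (s * a * s⁻¹)⁻¹) by group]
      exact mul_mem hn (hN.conj_mem _ (inv_mem hn) _)
    have := (Subgroup.eq_bot_iff_forall _).1 (disjoint_iff.1 hcS.disjoint) _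
      ⟨hdiff, (D.S : Subgroup X).mul_mem hb ((D.S : Subgroup X).inv_mem hsa)⟩
    exact (mul_inv_eq_one.1 this).symm
  have hzfix : ∀ i, ¬ IsConj D.z (D.ss i) := by
    intro i hc'
    obtain ⟨s, hs, e⟩ := key _ D.z_mem _ (D.ss_mem i) hc'
    rw [D.z_comm hs, mul_inv_cancel_right] at e
    exact D.rr_ne_ss _ _ e
  refine ⟨hzfix 0, hzfix 1, fun hc' => ?_⟩
  obtain ⟨s, hs, e⟩ := key _ (D.ss_mem 0) _ (D.ss_mem 1) hc'
  have : D.parity 1 = 0 := by
    rcases D.cases_mem hs with ⟨a, rfl⟩ | ⟨a, rfl⟩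
    · rw [conj_rr_ss] at e
      rw [← D.ss_inj e, zero_sub, map_neg, map_add, CharTwo.add_self_eq_zero, neg_zero]
    · rw [conj_ss_ss] at e
      rw [← D.ss_inj e, sub_zero, map_add, CharTwo.add_self_eq_zero]
  rw [map_one] at this
  exact one_ne_zero this

theorem class_set : {C : ConjClasses X | ∃ g : X, ConjClasses.mk g = C ∧ orderOf g = 2} =
    {ConjClasses.mk D.z, ConjClasses.mk (D.ss 0), ConjClasses.mk (D.ss 1)} := by
  ext C
  simp only [Set.mem_setOf_eq, Set.mem_insert_iff, Set.mem_singleton_iff]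
  constructor
  · rintro ⟨g, rfl, hg⟩
    simp only [ConjClasses.mk_eq_mk_iff_isConj]
    rcases involution_conj D hg with h | h | h
    · exact Or.inl h.symm
    · exact Or.inr (Or.inl h.symm)
    · exact Or.inr (Or.inr h.symm)
  · rintro (rfl | rfl | rfl)
    exacts [⟨_, rfl, D.orderOf_z⟩, ⟨_, rfl, D.orderOf_ss 0⟩, ⟨_, rfl, D.orderOf_ss 1⟩]

theorem trichotomy (h2 : 2 < D.m) :
    (Nat.card {C : ConjClasses X // ∃ g : X, ConjClasses.mk g = C ∧ orderOf g = 2} = 1 ∧
      ∀ N : Subgroup X, N.Normal → N.index ≠ 2) ∨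
    (Nat.card {C : ConjClasses X // ∃ g : X, ConjClasses.mk g = C ∧ orderOf g = 2} = 2 ∧
      (∃ N : Subgroup X, N.Normal ∧ N.index = 2) ∧ ∀ N : Subgroup X, N.Normal → N.index ≠ 4) ∨
    (Nat.card {C : ConjClasses X // ∃ g : X, ConjClasses.mk g = C ∧ orderOf g = 2} = 3 ∧
      Cfsg.HasNormalPComplement 2 X) := by
  classical
  have hcard : Nat.card {C : ConjClasses X // ∃ g : X, ConjClasses.mk g = C ∧ orderOf g = 2} =
      ({ConjClasses.mk D.z, ConjClasses.mk (D.ss 0), ConjClasses.mk (D.ss 1)} : Set (ConjClasses X)).ncard := by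
    rw [← class_set D]; rfl
  rw [hcard]
  have h01 : D.parity (0 : ZMod D.m) ≠ D.parity 1 := by rw [map_zero, map_one]; exact zero_ne_one
  have mkeq : ∀ a b : X, IsConj a b → ConjClasses.mk a = ConjClasses.mk b := fun a b h =>
    ConjClasses.mk_eq_mk_iff_isConj.2 h
  have mkne : ∀ a b : X, ¬ IsConj a b → ConjClasses.mk a ≠ ConjClasses.mk b := fun a b h e =>
    h (ConjClasses.mk_eq_mk_iff_isConj.1 e)
  by_cases h0 : IsConj D.z (D.ss 0) <;> by_cases h1 : IsConj D.z (D.ss 1)
  · refine Or.inl ⟨?_, ?_⟩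
    · rw [← mkeq _ _ h0, ← mkeq _ _ h1]; simp
    · intro N _
      refine D.no_index_two (fun i => ?_) N
      rcases parity_cases D i with h | h
      exacts [D.conj_z_of_same_parity h.symm h0, D.conj_z_of_same_parity h.symm h1]
  · refine Or.inr (Or.inl ⟨?_, index_two D h01 h0 h1, fun N hN => no_index_four D h2 h0 N hN⟩)
    rw [← mkeq _ _ h0, Set.insert_eq_of_mem (Set.mem_insert _ _)]
    exact Set.ncard_pair (mkne _ _ h1)
  · refine Or.inr (Or.inl ⟨?_, index_two D h01.symm h1 h0, fun N hN => no_index_four D h2 h1 N hN⟩)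
    rw [← mkeq _ _ h1, Set.pair_comm, Set.insert_eq_of_mem (Set.mem_insert _ _)]
    exact Set.ncard_pair (mkne _ _ h0)
  · have hnone : ∀ i, ¬ IsConj D.z (D.ss i) := by
      intro i hc
      rcases parity_cases D i with h | h
      exacts [h0 (D.conj_z_of_same_parity h hc), h1 (D.conj_z_of_same_parity h hc)]
    have hcompl := complement_of_none D h2 hnone
    obtain ⟨a, b, c⟩ := three_of_complement D h2 hcompl
    refine Or.inr (Or.inr ⟨?_, hcompl⟩)
    rw [Set.ncard_insert_of_notMem, Set.ncard_pair (mkne _ _ c)]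
    simp only [Set.mem_insert_iff, Set.mem_singleton_iff, not_or]
    exact ⟨mkne _ _ a, mkne _ _ b⟩

end CfsgLib.DihedralClasses
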